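import Mathlib

/-!
# S5719, PSL_4 (q odd), case (t1): the flag lemma (helper458)

`OpN p B P` : `P = O_p(B)` (the largest `p`-subgroup of `B` normalised by `B`) and `N_S(P) ≤ B`.
`flag` : for a faithful representation `V` of `S` in characteristic `p`, an element `s` that leaves invariant all
`B`-invariant subspaces of `V` is in `B` (if `O_p(B) ≠ 1`).
-/

set_option autoImplicit false
set_option linter.unusedSectionVars false

namespace Cfsg.Agent.H458.IFl

open Subgroup MulAction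

/-- `P = O_p(B)` and its normaliser is in `B` -/
structure OpN (p : ℕ) {S : Type*} [Group S] (B P : Subgroup S) : Prop where
  le : P ≤ B
  pg : IsPGroup p P
  nor : ∀ b ∈ B, ∀ k ∈ P, b * k * b⁻¹ ∈ P
  max : ∀ R : Subgroup S, R ≤ B → IsPGroup p R → (∀ b ∈ B, ∀ k ∈ R, b * k * b⁻¹ ∈ R) → R ≤ P
  norm : P ≠ ⊥ → ∀ g : S, (∀ k ∈ P, g * k * g⁻¹ ∈ P) → g ∈ B

section

variable {E V S : Type*} [Field E] [AddCommGroup V] [Module E V] [Group S]
  (ρ : S →* Module.End E V)

/-- the next term of the flag -/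
def nxt (P : Subgroup S) (W : Submodule E V) : Submodule E V where
  carrier := {v | ∀ k ∈ P, ρ k v - v ∈ W}
  add_mem' {a b} ha hb k hk := by
    have h : ρ k (a + b) - (a + b) = (ρ k a - a) + (ρ k b - b) := by rw [map_add]; abel
    rw [h]
    exact W.add_mem (ha k hk) (hb k hk)
  zero_mem' k _ := by rw [map_zero, sub_zero]; exact W.zero_mem
  smul_mem' c a ha k hk := by
    have h : ρ k (c • a) - c • a = c • (ρ k a - a) := by rw [map_smul, smul_sub]
    rw [h]
    exact W.smul_mem c (ha k hk)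

theorem mem_nxt {P : Subgroup S} {W : Submodule E V} {v : V} : v ∈ nxt ρ P W ↔ ∀ k ∈ P, ρ k v - v ∈ W := Iff.rfl

/-- the flag -/
def vs (P : Subgroup S) : ℕ → Submodule E V
  | 0 => ⊥
  | n + 1 => nxt ρ P (vs P n)

theorem mem_vs {P : Subgroup S} {n : ℕ} {v : V} : v ∈ vs ρ P (n + 1) ↔ ∀ k ∈ P, ρ k v - v ∈ vs ρ P n := Iff.rfl

theorem mul_ap (g h : S) (v : V) : ρ (g * h) v = ρ g (ρ h v) := by rw [map_mul]; rfl

theorem inv_ap (g : S) (v : V) : ρ g (ρ g⁻¹ v) = v := by
  rw [← mul_ap, mul_inv_cancel, map_one]; rfl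

theorem vs_inv {B P : Subgroup S} (hn : ∀ b ∈ B, ∀ k ∈ P, b * k * b⁻¹ ∈ P) (n : ℕ) :
    ∀ b ∈ B, ∀ w ∈ vs ρ P n, ρ b w ∈ vs ρ P n := by
  induction n with
  | zero =>
    intro b _ w hw
    have h : w = 0 := hw
    rw [h, map_zero]
    exact Submodule.zero_mem _
  | succ n ih =>
    intro b hb w hw
    rw [mem_vs] at hw ⊢
    intro k hk
    have h1 : b⁻¹ * k * b ∈ P := by
      have := hn b⁻¹ (B.inv_mem hb) k hk
      rwa [inv_inv] at this
    have h2 : ρ k (ρ b w) - ρ b w = ρ b (ρ (b⁻¹ * k * b) w - w) := by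
      rw [map_sub, ← mul_ap, ← mul_ap]
      congr 3
      group
    rw [h2]
    exact ih b hb _ (hw _ h1)

theorem vs_le {P : Subgroup S} (n : ℕ) : vs ρ P n ≤ vs ρ P (n + 1) := by
  have hinv := vs_inv ρ (B := P) (P := P) (fun b hb k hk => P.mul_mem (P.mul_mem hb hk) (P.inv_mem hb)) n
  intro v hv
  rw [mem_vs]
  intro k hk
  exact Submodule.sub_mem _ (hinv k hk v hv) hv

theorem vs_mono {P : Subgroup S} : Monotone (vs ρ P) := monotone_nat_of_le_succ (vs_le ρ)

/-- the action on the quotient -/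
@[instance_reducible] def qact (P : Subgroup S) (W : Submodule E V) (hW : ∀ k ∈ P, ∀ w ∈ W, ρ k w ∈ W) : MulAction P (V ⧸ W) where
  smul k x := Submodule.mapQ W W (ρ k) (hW k k.2) x
  one_smul x := by
    induction x using Submodule.Quotient.induction_on with
    | H v =>
      show Submodule.Quotient.mk (ρ ((1 : P) : S) v) = _
      rw [OneMemClass.coe_one, map_one]; rfl
  mul_smul a b x := by
    induction x using Submodule.Quotient.induction_on with
    | H v =>
      show Submodule.Quotient.mk (ρ ((a * b : P) : S) v) = Submodule.Quotient.mk (ρ (a : S) (ρ (b : S) v))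
      rw [Subgroup.coe_mul, mul_ap]

theorem nxt_lt (p : ℕ) [Fact p.Prime] [CharP E p] [Finite V] {P : Subgroup S} (hp : IsPGroup p P) {W : Submodule E V}
    (hW : ∀ k ∈ P, ∀ w ∈ W, ρ k w ∈ W) (hne : W ≠ ⊤) : ∃ v ∉ W, v ∈ nxt ρ P W := by
  classical
  let _ := qact ρ P W hW
  have hfin : Finite (V ⧸ W) := Finite.of_surjective _ (Submodule.mkQ_surjective W)
  have hnt : Nontrivial (V ⧸ W) := Submodule.Quotient.nontrivial_iff.2 hne
  have hdvd : p ∣ Nat.card (V ⧸ W) := by
    obtain ⟨x, hx⟩ := exists_ne (0 : V ⧸ W)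
    have h1 : addOrderOf x = p := by
      apply addOrderOf_eq_prime _ hx
      rw [← Nat.cast_smul_eq_nsmul E, CharP.cast_eq_zero, zero_smul]
    rw [← h1]
    exact addOrderOf_dvd_natCard x
  have h0 : (0 : V ⧸ W) ∈ fixedPoints P (V ⧸ W) := by
    intro k
    exact map_zero (Submodule.mapQ W W (ρ k) (hW k k.2))
  obtain ⟨b, hb, hb0⟩ := hp.exists_fixed_point_of_prime_dvd_card_of_fixed_point (V ⧸ W) hdvd h0
  obtain ⟨v, rfl⟩ := Submodule.Quotient.mk_surjective W b
  refine ⟨v, ?_, ?_⟩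
  · intro hv
    exact hb0 ((Submodule.Quotient.mk_eq_zero W).2 hv).symm
  · intro k hk
    have h1 := hb ⟨k, hk⟩
    have h2 : (Submodule.Quotient.mk (ρ k v) : V ⧸ W) = Submodule.Quotient.mk v := h1
    exact (Submodule.Quotient.eq W).1 h2

theorem vs_top (p : ℕ) [Fact p.Prime] [CharP E p] [Finite V] {P : Subgroup S} (hp : IsPGroup p P) :
    ∃ n, vs ρ P n = ⊤ := by
  by_contra hcon
  push Not at hcon
  have h1 : StrictMono (vs ρ P) := by
    refine strictMono_nat_of_lt_succ fun n => lt_of_le_of_ne (vs_le ρ n) ?_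
    intro h
    obtain ⟨v, hv, hv'⟩ := nxt_lt ρ p hp (W := vs ρ P n)
      (vs_inv ρ (B := P) (P := P) (fun b hb k hk => P.mul_mem (P.mul_mem hb hk) (P.inv_mem hb)) n) (hcon n)
    apply hv
    rw [h]
    exact hv'
  have hfin : Finite (Submodule E V) := Finite.of_injective (fun W : Submodule E V => (W : Set V)) SetLike.coe_injective
  exact not_injective_infinite_finite _ h1.injective

/-- elements acting trivially on the quotients -/
def qg (P : Subgroup S) (g : S) : Prop := ∀ n, ∀ v ∈ vs ρ P (n + 1), ρ g v - v ∈ vs ρ P n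

theorem qg_inv {P : Subgroup S} {g : S} (hg : qg ρ P g) (n : ℕ) : ∀ v ∈ vs ρ P n, ρ g v ∈ vs ρ P n := by
  intro v hv
  cases n with
  | zero =>
    have h : v = 0 := hv
    rw [h, map_zero]
    exact Submodule.zero_mem _
  | succ n =>
    have h : ρ g v = (ρ g v - v) + v := by abel
    rw [h]
    exact Submodule.add_mem _ (vs_le ρ n (hg n v hv)) hv

/-- the group acting trivially on the quotients -/
def QQ [Finite S] (P : Subgroup S) : Subgroup S where
  carrier := {g | qg ρ P g}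
  mul_mem' {a b} ha hb n v hv := by
    have h : ρ (a * b) v - v = ρ a (ρ b v - v) + (ρ a v - v) := by rw [mul_ap, map_sub]; abel
    rw [h]
    exact Submodule.add_mem _ (qg_inv ρ ha n _ (hb n v hv)) (ha n v hv)
  one_mem' n v _ := by
    rw [map_one]
    show v - v ∈ _
    rw [sub_self]
    exact Submodule.zero_mem _
  inv_mem' {a} ha := by
    have hpow : ∀ k : ℕ, qg ρ P (a ^ k) := by
      intro k
      induction k with
      | zero =>
        intro n v _
        rw [pow_zero, map_one]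
        show v - v ∈ _
        rw [sub_self]
        exact Submodule.zero_mem _
      | succ k ih =>
        intro n v hv
        have h : ρ (a ^ (k + 1)) v - v = ρ (a ^ k) (ρ a v - v) + (ρ (a ^ k) v - v) := by
          rw [pow_succ, mul_ap, map_sub]; abel
        rw [h]
        exact Submodule.add_mem _ (qg_inv ρ ih n _ (ha n v hv)) (ih n v hv)
    have h1 : a⁻¹ = a ^ (orderOf a - 1) := by
      rw [inv_eq_iff_mul_eq_one, ← pow_succ', Nat.sub_add_cancel (orderOf_pos a), pow_orderOf_eq_one]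
    show qg ρ P a⁻¹
    rw [h1]
    exact hpow _

theorem mem_QQ [Finite S] {P : Subgroup S} {g : S} : g ∈ QQ ρ P ↔ ∀ n, ∀ v ∈ vs ρ P (n + 1), ρ g v - v ∈ vs ρ P n :=
  Iff.rfl

theorem QQ_pg [Finite S] (p : ℕ) [Fact p.Prime] [CharP E p] [Finite V] [Nontrivial V] (hρ : Function.Injective ρ)
    {P : Subgroup S} (hp : IsPGroup p P) : IsPGroup p (QQ ρ P) := by
  obtain ⟨m, hm⟩ := vs_top ρ p hp
  have hch : CharP (Module.End E V) p := charP_of_injective_algebraMap (algebraMap E (Module.End E V)).injective p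
  rintro ⟨g, hg⟩
  refine ⟨m, ?_⟩
  apply Subtype.ext
  apply hρ
  show ρ (g ^ p ^ m) = ρ 1
  set N : Module.End E V := ρ g - 1 with hN
  have h1 : ∀ j i : ℕ, ∀ v ∈ vs ρ P (i + j), (N ^ j) v ∈ vs ρ P i := by
    intro j
    induction j with
    | zero =>
      intro i v hv
      exact hv
    | succ j ih =>
      intro i v hv
      rw [pow_succ, Module.End.mul_apply]
      exact ih i _ (hg (i + j) v hv)
  have h2 : N ^ m = 0 := by
    ext v
    have h3 : (N ^ m) v ∈ vs ρ P 0 := h1 m 0 v (by rw [zero_add, hm]; exact Submodule.mem_top)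
    exact h3
  have hlt : m ≤ p ^ m := (Nat.lt_pow_self (Fact.out : p.Prime).one_lt).le
  have h3 : N ^ p ^ m = 0 := pow_eq_zero_of_le hlt h2
  have h4 : ρ g = N + 1 := by rw [hN, sub_add_cancel]
  rw [map_pow, h4, map_one, add_pow_char_pow_of_commute p m (Commute.one_right N), h3, one_pow, zero_add]

/-- **The flag lemma.** -/
theorem flag [Finite S] (p : ℕ) [Fact p.Prime] [CharP E p] [Finite V] (hρ : Function.Injective ρ)
    {B P : Subgroup S} (h : OpN p B P) (hP : P ≠ ⊥) (s : S)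
    (hs : ∀ W : Submodule E V, (∀ b ∈ B, ∀ w ∈ W, ρ b w ∈ W) → ∀ w ∈ W, ρ s w ∈ W) : s ∈ B := by
  have hnt : Nontrivial V := by
    by_contra hcon
    rw [not_nontrivial_iff_subsingleton] at hcon
    apply hP
    rw [Subgroup.eq_bot_iff_forall]
    intro x _
    apply hρ
    exact LinearMap.ext fun v => Subsingleton.elim _ _
  have hPQ : P ≤ QQ ρ P := by
    intro k hk n v hv
    exact (mem_vs ρ).1 hv k hk
  have hQB : QQ ρ P ⊓ B ≤ P := by
    refine h.max _ inf_le_right ((QQ_pg ρ p hρ h.pg).to_le inf_le_left) ?_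
    rintro b hb g ⟨hg1, hg2⟩
    refine ⟨?_, B.mul_mem (B.mul_mem hb hg2) (B.inv_mem hb)⟩
    intro n v hv
    have h1 : ρ (b * g * b⁻¹) v - v = ρ b (ρ g (ρ b⁻¹ v) - ρ b⁻¹ v) := by
      rw [map_sub, inv_ap, mul_ap, mul_ap]
    rw [h1]
    exact vs_inv ρ h.nor n b hb _ (hg1 n _ (vs_inv ρ h.nor (n + 1) b⁻¹ (B.inv_mem hb) v hv))
  -- `Q = P`
  have hQP : QQ ρ P ≤ P := by
    have hQp := QQ_pg ρ p hρ h.pg
    have hnil : Group.IsNilpotent (QQ ρ P) := hQp.isNilpotent
    have hnc : NormalizerCondition (QQ ρ P) := Group.normalizerCondition_of_isNilpotent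
    by_contra hcon
    have h1 : P.subgroupOf (QQ ρ P) < ⊤ := by
      rw [lt_top_iff_ne_top]
      intro h2
      exact hcon (Subgroup.subgroupOf_eq_top.1 h2)
    have h2 := hnc _ h1
    obtain ⟨⟨g, hgQ⟩, hgn, hgP⟩ := SetLike.exists_of_lt h2
    have h3 : ∀ k ∈ P, g * k * g⁻¹ ∈ P := by
      intro k hk
      have h4 := (Subgroup.mem_normalizer_iff.1 hgn ⟨k, hPQ hk⟩).1 hk
      exact h4
    exact hgP (hQB ⟨hgQ, h.norm hP g h3⟩)
  have hQ : QQ ρ P = P := le_antisymm hQP hPQ
  have hsinv : ∀ n, ∀ w ∈ vs ρ P n, ρ s w ∈ vs ρ P n := fun n => hs (vs ρ P n) (vs_inv ρ h.nor n)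
  have hsinv' : ∀ n, ∀ w ∈ vs ρ P n, ρ s⁻¹ w ∈ vs ρ P n := by
    intro n
    have h1 : s⁻¹ = s ^ (orderOf s - 1) := by
      rw [inv_eq_iff_mul_eq_one, ← pow_succ', Nat.sub_add_cancel (orderOf_pos s), pow_orderOf_eq_one]
    have h2 : ∀ k : ℕ, ∀ w ∈ vs ρ P n, ρ (s ^ k) w ∈ vs ρ P n := by
      intro k
      induction k with
      | zero =>
        intro w hw
        rw [pow_zero, map_one]
        exact hw
      | succ k ih =>
        intro w hw
        rw [pow_succ, mul_ap]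
        exact ih _ (hsinv n w hw)
    rw [h1]
    exact h2 _
  apply h.norm hP
  intro k hk
  rw [← hQ]
  intro n v hv
  have h1 : ρ (s * k * s⁻¹) v - v = ρ s (ρ k (ρ s⁻¹ v) - ρ s⁻¹ v) := by
    rw [map_sub, inv_ap, mul_ap, mul_ap]
  rw [h1]
  exact hsinv n _ (hPQ hk n _ (hsinv' (n + 1) v hv))

end

end Cfsg.Agent.H458.IFl
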