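import Cfsg.Agent.H458.IF.Flag
import Cfsg.Agent.H680.IF.EngA
import Cfsg.Agent.S0199

/-!
# S5719, PSL_4 (q odd), case (t1): `O_p` (helper458)

* `exists_op` : the largest `p`-subgroup of `B` normalised by `B`
* `opN_of_IF` : `OpN p A K` for `K = O_p(A)` (from `IF A Γ`)
* `opN_lift` : the same for the preimage in a central cover of order prime to `p`
* `bs` : Baer–Suzuki
-/

set_option autoImplicit false
set_option linter.unusedSectionVars false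

namespace Cfsg.Agent.H458.IFl

open Subgroup Cfsg.Agent.H209.Fxy

theorem exists_op {S : Type*} [Group S] [Finite S] (p : ℕ) [Fact p.Prime] (B : Subgroup S) : ∃ P : Subgroup S, P ≤ B ∧
    IsPGroup p P ∧ (∀ b ∈ B, ∀ k ∈ P, b * k * b⁻¹ ∈ P) ∧
    ∀ R : Subgroup S, R ≤ B → IsPGroup p R → (∀ b ∈ B, ∀ k ∈ R, b * k * b⁻¹ ∈ R) → R ≤ P := by
  have hne : Nonempty {R : Subgroup S // R ≤ B ∧ IsPGroup p R ∧ ∀ b ∈ B, ∀ k ∈ R, b * k * b⁻¹ ∈ R} := by
    refine ⟨⟨⊥, bot_le, IsPGroup.of_bot, ?_⟩⟩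
    intro b _ k hk
    rw [Subgroup.mem_bot] at hk ⊢
    rw [hk, mul_one, mul_inv_cancel]
  obtain ⟨⟨P, hP1, hP2, hP3⟩, hmax⟩ := Finite.exists_max
    (fun R : {R : Subgroup S // R ≤ B ∧ IsPGroup p R ∧ ∀ b ∈ B, ∀ k ∈ R, b * k * b⁻¹ ∈ R} => Nat.card R.1)
  refine ⟨P, hP1, hP2, hP3, ?_⟩
  intro R hR1 hR2 hR3
  have h1 : ∀ b ∈ B, ∀ k ∈ P ⊔ R, b * k * b⁻¹ ∈ P ⊔ R := by
    intro b hb k hk
    have h2 : P ⊔ R ≤ (P ⊔ R).comap (MulAut.conj b).toMonoidHom := by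
      rw [sup_le_iff]
      exact ⟨fun x hx => Subgroup.mem_sup_left (hP3 b hb x hx), fun x hx => Subgroup.mem_sup_right (hR3 b hb x hx)⟩
    exact h2 hk
  have h3 : IsPGroup p (P ⊔ R : Subgroup S) := by
    refine hP2.to_sup_of_normal_right' hR2 ?_
    intro x hx
    rw [Subgroup.mem_normalizer_iff]
    intro y
    constructor
    · intro hy
      exact hR3 x (hP1 hx) y hy
    · intro hy
      have h4 := hR3 x⁻¹ (B.inv_mem (hP1 hx)) _ hy
      have h5 : x⁻¹ * (x * y * x⁻¹) * x⁻¹⁻¹ = y := by group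
      rwa [h5] at h4
  have h2 := hmax ⟨P ⊔ R, sup_le hP1 hR1, h3, h1⟩
  have h4 : P = P ⊔ R := Subgroup.eq_of_le_of_card_ge le_sup_left h2
  rw [h4]
  exact le_sup_right

theorem opN_of_IF {T : Type*} [Group T] [Finite T] [IsSimpleGroup T] {A : Subgroup T} {Γ : Subgroup (MulAut T)}
    (h : IF A Γ) (p : ℕ) [Fact p.Prime] : ∃ K : Subgroup T, OpN p A K := by
  obtain ⟨K, h1, h2, h3, h4⟩ := exists_op p A
  refine ⟨K, h1, h2, h3, h4, ?_⟩
  intro hne g hg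
  refine Cfsg.Agent.H680.Fxy.IF.norm h h1 ?_ hne hg
  intro σ hσ k hk
  have h5 : K.map σ.toMonoidHom ≤ K := by
    refine h4 _ ?_ (h2.map _) ?_
    · rintro _ ⟨x, hx, rfl⟩
      exact (h.inv σ hσ x).2 (h1 hx)
    · rintro a ha _ ⟨x, hx, rfl⟩
      have h6 : (σ⁻¹ : MulAut T) a ∈ A := (h.inv σ⁻¹ (Γ.inv_mem hσ) a).2 ha
      refine ⟨(σ⁻¹ : MulAut T) a * x * ((σ⁻¹ : MulAut T) a)⁻¹, h3 _ h6 x hx, ?_⟩
      show σ ((σ⁻¹ : MulAut T) a * x * ((σ⁻¹ : MulAut T) a)⁻¹) = a * σ x * a⁻¹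
      rw [map_mul, map_mul, map_inv, MulAut.apply_inv_self]
  exact h5 ⟨k, hk, rfl⟩

/-- the elements of `p`-power order of a nilpotent group -/
theorem exists_pelts {S : Type*} [Group S] [Finite S] (p : ℕ) [Fact p.Prime] (R : Subgroup S)
    (hR : Group.IsNilpotent R) : ∃ P : Subgroup S, ∀ x, x ∈ P ↔ x ∈ R ∧ ∃ k : ℕ, x ^ p ^ k = 1 := by
  have hnc : NormalizerCondition R := Group.normalizerCondition_of_isNilpotent
  obtain ⟨P⟩ : Nonempty (Sylow p R) := inferInstance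
  have hn := Sylow.normal_of_normalizerCondition hnc P
  refine ⟨(P : Subgroup R).map R.subtype, ?_⟩
  intro x
  constructor
  · rintro ⟨y, hy, rfl⟩
    refine ⟨y.2, ?_⟩
    obtain ⟨k, hk⟩ := P.2 ⟨y, hy⟩
    exact ⟨k, congrArg (fun z : (P : Subgroup R) => ((z : R) : S)) hk⟩
  · rintro ⟨hx, k, hk⟩
    have h1 : IsPGroup p (zpowers (⟨x, hx⟩ : R)) := by
      rintro ⟨_, j, rfl⟩
      refine ⟨k, ?_⟩
      apply Subtype.ext
      apply Subtype.ext
      show (x ^ j) ^ p ^ k = 1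
      rw [← zpow_natCast, zpow_comm, zpow_natCast, hk, one_zpow]
    obtain ⟨Q, hQ⟩ := h1.exists_le_sylow
    have h2 : (Q : Subgroup R) = P := by
      have := Sylow.unique_of_normal P hn
      exact congrArg (fun Z : Sylow p R => (Z : Subgroup R)) (Subsingleton.elim Q P)
    exact ⟨⟨x, hx⟩, by rw [← h2]; exact hQ (mem_zpowers _), rfl⟩

theorem opN_lift {S T : Type*} [Group S] [Finite S] [Group T] [Finite T] (π : S →* T) (hπ : Function.Surjective π)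
    (hc : π.ker ≤ Subgroup.center S) (p m : ℕ) [Fact p.Prime] (hm : Nat.Coprime m p) (hk : ∀ z ∈ π.ker, z ^ m = 1)
    {A K : Subgroup T} (h : OpN p A K) : ∃ P : Subgroup S, OpN p (A.comap π) P := by
  obtain ⟨P, h1, h2, h3, h4⟩ := exists_op p (A.comap π)
  have hnil : Group.IsNilpotent (K.comap π) := by
    have hK : Group.IsNilpotent K := h.pg.isNilpotent
    refine Subgroup.isNilpotent_of_ker_le_center (π.subgroupComap K) ?_
    intro z hz
    have h5 : (z : S) ∈ π.ker := congrArg Subtype.val hz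
    rw [Subgroup.mem_center_iff]
    intro g
    exact Subtype.ext (Subgroup.mem_center_iff.1 (hc h5) g)
  obtain ⟨P', hP'⟩ := exists_pelts p _ hnil
  have h5 : P' ≤ P := by
    refine h4 _ ?_ ?_ ?_
    · intro x hx
      exact h.le ((hP' x).1 hx).1
    · rintro ⟨x, hx⟩
      obtain ⟨-, k, hk⟩ := (hP' x).1 hx
      exact ⟨k, Subtype.ext hk⟩
    · intro b hb k hk
      obtain ⟨h6, j, hj⟩ := (hP' k).1 hk
      refine (hP' _).2 ⟨?_, j, ?_⟩
      · show π (b * k * b⁻¹) ∈ K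
        rw [map_mul, map_mul, map_inv]
        exact h.nor _ hb _ h6
      · rw [conj_pow, hj, mul_one, mul_inv_cancel]
  have h6 : P.map π ≤ K := by
    refine h.max _ ?_ (h2.map π) ?_
    · rintro _ ⟨x, hx, rfl⟩
      exact h1 hx
    · rintro a ha _ ⟨x, hx, rfl⟩
      obtain ⟨b, rfl⟩ := hπ a
      exact ⟨b * x * b⁻¹, h3 b ha x hx, by rw [map_mul, map_mul, map_inv]⟩
  -- lifts of `p`-elements
  have h7 : ∀ y ∈ K, ∃ x ∈ P, π x = y := by
    intro y hy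
    obtain ⟨r, rfl⟩ := hπ y
    obtain ⟨k, hk'⟩ := h.pg ⟨_, hy⟩
    have hk2 : (π r) ^ p ^ k = 1 := congrArg Subtype.val hk'
    have hk3 : r ^ p ^ k ∈ π.ker := by rw [MonoidHom.mem_ker, map_pow, hk2]
    have hk4 : (r ^ p ^ k) ^ m = 1 := hk _ hk3
    obtain ⟨j, hj0, hj⟩ : ∃ j : ℕ, m ∣ j ∧ j ≡ 1 [MOD p ^ k] := by
      have hcop : Nat.Coprime m (p ^ k) := hm.pow_right k
      obtain ⟨j, hj⟩ := Nat.chineseRemainder hcop 0 1
      exact ⟨j, (Nat.modEq_zero_iff_dvd).1 hj.1, hj.2⟩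
    have hπr : π (r ^ j) = π r := by
      rw [map_pow]
      have h8 : (π r) ^ j = (π r) ^ 1 := by
        rw [pow_eq_pow_iff_modEq]
        exact hj.of_dvd (orderOf_dvd_of_pow_eq_one hk2)
      rw [h8, pow_one]
    refine ⟨r ^ j, h5 ((hP' _).2 ⟨?_, k, ?_⟩), hπr⟩
    · show π (r ^ j) ∈ K
      rw [hπr]
      exact hy
    · obtain ⟨c, rfl⟩ := hj0
      rw [← pow_mul, mul_comm, ← mul_assoc, pow_mul, pow_mul, hk4, one_pow]
  refine ⟨P, h1, h2, h3, h4, ?_⟩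
  intro hne g hg
  have hKne : K ≠ ⊥ := by
    intro hK
    apply hne
    rw [Subgroup.eq_bot_iff_forall]
    intro x hx
    have h8 : π x ∈ K := h6 ⟨x, hx, rfl⟩
    rw [hK, Subgroup.mem_bot] at h8
    have h9 := hk x h8
    obtain ⟨k, hk'⟩ := h2 ⟨x, hx⟩
    have h10 : x ^ p ^ k = 1 := congrArg Subtype.val hk'
    have h11 : orderOf x ∣ 1 := by
      rw [← (hm.pow_right k).gcd_eq_one]
      exact Nat.dvd_gcd (orderOf_dvd_of_pow_eq_one h9) (orderOf_dvd_of_pow_eq_one h10)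
    rw [← orderOf_eq_one_iff]
    exact Nat.dvd_one.1 h11
  apply h.norm hKne
  intro y hy
  obtain ⟨x, hx, rfl⟩ := h7 y hy
  rw [← map_inv, ← map_mul, ← map_mul]
  exact h6 ⟨_, hg x hx, rfl⟩

/-- **Baer–Suzuki** -/
theorem bs {S : Type*} [Group S] [Finite S] {p : ℕ} [Fact p.Prime] {B P : Subgroup S} (h : OpN p B P) {x : S}
    (hx : x ∈ B) (hg : ∀ g ∈ B, IsPGroup p (closure {x, g * x * g⁻¹})) : x ∈ P := by
  have h1 : ∀ g : B, IsPGroup p ↥(zpowers (⟨x, hx⟩ : B) ⊔ (zpowers (⟨x, hx⟩ : B)).map (MulAut.conj g).toMonoidHom) := by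
    intro g
    refine IsPGroup.of_injective (hg g g.2) ((B.subtype.comp (Subgroup.subtype _)).codRestrict _ ?_) ?_
    · rintro ⟨y, hy⟩
      have h2 : zpowers (⟨x, hx⟩ : B) ⊔ (zpowers (⟨x, hx⟩ : B)).map (MulAut.conj g).toMonoidHom ≤
          (closure {x, (g : S) * x * (g : S)⁻¹}).comap B.subtype := by
        rw [sup_le_iff, Subgroup.map_le_iff_le_comap, zpowers_le, zpowers_le]
        exact ⟨subset_closure (Set.mem_insert _ _), subset_closure (Set.mem_insert_of_mem _ rfl)⟩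
      exact h2 hy
    · intro a b hab
      have h3 : ((a : B) : S) = ((b : B) : S) := congrArg (fun z : ↥(closure {x, (g : S) * x * (g : S)⁻¹}) => (z : S)) hab
      exact Subtype.ext (Subtype.ext h3)
  have h0 : IsPGroup p (zpowers (⟨x, hx⟩ : B)) := (h1 1).to_le le_sup_left
  obtain ⟨N, hN1, hN2, hN3⟩ := S0199.result (zpowers (⟨x, hx⟩ : B)) h0 h1
  have h2 : N.map B.subtype ≤ P := by
    refine h.max _ ?_ (hN2.map _) ?_
    · rintro _ ⟨y, -, rfl⟩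
      exact y.2
    · rintro b hb _ ⟨y, hy, rfl⟩
      exact ⟨_, hN1.conj_mem y hy ⟨b, hb⟩, rfl⟩
  exact h2 ⟨⟨x, hx⟩, hN3 (mem_zpowers _), rfl⟩

end Cfsg.Agent.H458.IFl
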