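import Cfsg.Agent.H458.IF.Op
import Cfsg.Agent.H358.IF.Blk
import Cfsg.Agent.H411.L4.LR

/-!
# S5719, PSL_4 (q odd), case (t1) (helper458)
-/

set_option autoImplicit false
set_option linter.unusedSectionVars false

namespace Cfsg.Agent.H458.IFl

open Subgroup Matrix Cfsg.Agent.H209.Fxy Cfsg.Agent.H358.IF

section mats

variable {ι : Type} [Fintype ι] [DecidableEq ι] {F : Type} [Field F]

/-- `1 + m` with `m³ = 0` has order dividing `p` -/
theorem pow_p_eq_one [Nonempty ι] {p : ℕ} [hp : Fact p.Prime] [CharP F p] (hp3 : 3 ≤ p) {m : Matrix ι ι F}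
    (hm : m * m * m = 0) : (1 + m) ^ p = 1 := by
  have h1 : m ^ 3 = 0 := by rw [pow_succ, pow_two, hm]
  have h2 : m ^ p = 0 := pow_eq_zero_of_le hp3 h1
  rw [add_pow_char_of_commute p (Commute.one_left m), one_pow, h2, add_zero]

theorem sl_pow_p [Nonempty ι] {p : ℕ} [hp : Fact p.Prime] [CharP F p] (hp3 : 3 ≤ p) {g : SpecialLinearGroup ι F}
    (hm : (g.val - 1) * (g.val - 1) * (g.val - 1) = 0) : g ^ p = 1 := by
  apply Subtype.ext
  rw [Matrix.SpecialLinearGroup.coe_pow]
  have h1 := pow_p_eq_one hp3 hm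
  rw [add_sub_cancel] at h1
  exact h1

/-- two unipotent elements -/
theorem pg_closure [Nonempty ι] {p : ℕ} [hp : Fact p.Prime] [CharP F p] (hp3 : 3 ≤ p) {x x' : SpecialLinearGroup ι F}
    {n n' : Matrix ι ι F} (hx : x.val = 1 + n) (hx' : x'.val = 1 + n') (h1 : n * n = 0) (h2 : n' * n' = 0)
    (h3 : n * n' = 0) : IsPGroup p (closure {x, x'}) := by
  have key : ∀ g ∈ closure {x, x'}, ∃ α β γ : F, g.val = 1 + α • n + β • n' + γ • (n' * n) := by
    intro g hg
    have h4 : n' * n * n = 0 := by rw [mul_assoc, h1, mul_zero]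
    have h5 : n' * n * n' = 0 := by rw [mul_assoc, h3, mul_zero]
    have h6 : n' * (n' * n) = 0 := by rw [← mul_assoc, h2, zero_mul]
    have h7 : n * (n' * n) = 0 := by rw [← mul_assoc, h3, zero_mul]
    have h8 : n' * n * (n' * n) = 0 := by rw [← mul_assoc, h5, zero_mul]
    have hmul : ∀ α β γ α' β' γ' : F, (1 + α • n + β • n' + γ • (n' * n)) * (1 + α' • n + β' • n' + γ' • (n' * n)) =
        1 + (α + α') • n + (β + β') • n' + (γ + γ' + β * α') • (n' * n) := by
      intro α β γ α' β' γ'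
      simp only [add_mul, mul_add, one_mul, mul_one, smul_mul_smul_comm, h1, h2, h3, h4, h5, h6, h7, h8, smul_zero,
        add_zero, add_smul, smul_add]
      abel
    induction hg using Subgroup.closure_induction with
    | mem g hg =>
      rcases hg with rfl | hg
      · exact ⟨1, 0, 0, by rw [hx]; simp⟩
      · have hg' : g = x' := hg
        exact ⟨0, 1, 0, by rw [hg', hx']; simp⟩
    | one => exact ⟨0, 0, 0, by simp⟩
    | mul a b _ _ iha ihb =>
      obtain ⟨α, β, γ, ha⟩ := iha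
      obtain ⟨α', β', γ', hb⟩ := ihb
      exact ⟨_, _, _, by rw [Matrix.SpecialLinearGroup.coe_mul, ha, hb, hmul]⟩
    | inv a _ iha =>
      obtain ⟨α, β, γ, ha⟩ := iha
      refine ⟨-α, -β, -γ + β * α, ?_⟩
      have h9 : a.val * (a⁻¹ : SpecialLinearGroup ι F).val = 1 := mul_inv_val a
      have h10 : (1 + (-α) • n + (-β) • n' + (-γ + β * α) • (n' * n)) * a.val = 1 := by
        rw [ha, hmul]
        have e1 : -α + α = 0 := by ring
        have e2 : -β + β = 0 := by ring
        have e3 : -γ + β * α + γ + -β * α = 0 := by ring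
        rw [e1, e2, e3, zero_smul, zero_smul, zero_smul, add_zero, add_zero, add_zero]
      calc (a⁻¹ : SpecialLinearGroup ι F).val
          = ((1 + (-α) • n + (-β) • n' + (-γ + β * α) • (n' * n)) * a.val) * (a⁻¹ : SpecialLinearGroup ι F).val := by
            rw [h10, one_mul]
        _ = 1 + (-α) • n + (-β) • n' + (-γ + β * α) • (n' * n) := by rw [mul_assoc, h9, mul_one]
  rintro ⟨g, hg⟩
  refine ⟨1, Subtype.ext ?_⟩
  show g ^ p ^ 1 = 1
  rw [pow_one]
  obtain ⟨α, β, γ, ha⟩ := key g hg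
  apply sl_pow_p hp3
  have h4 : n' * n * n = 0 := by rw [mul_assoc, h1, mul_zero]
  have h5 : n' * n * n' = 0 := by rw [mul_assoc, h3, mul_zero]
  have h6 : n' * (n' * n) = 0 := by rw [← mul_assoc, h2, zero_mul]
  have h7 : n * (n' * n) = 0 := by rw [← mul_assoc, h3, zero_mul]
  have h8 : n' * n * (n' * n) = 0 := by rw [← mul_assoc, h5, zero_mul]
  have h9 : g.val - 1 = α • n + β • n' + γ • (n' * n) := by rw [ha]; abel
  rw [h9]
  have h10 : (α • n + β • n' + γ • (n' * n)) * (α • n + β • n' + γ • (n' * n)) = (β * α) • (n' * n) := by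
    simp only [add_mul, mul_add, smul_mul_smul_comm, h1, h2, h3, h4, h5, h6, h7, h8, smul_zero,
      add_zero, zero_add]
  rw [h10]
  simp only [mul_add, smul_mul_smul_comm, h4, h5, h8, smul_zero, add_zero]

/-- `SL_2` on a summand -/
def emb (Bm : Matrix ι (Fin 2) F) (Cm : Matrix (Fin 2) ι F) (h : Cm * Bm = 1) :
    SpecialLinearGroup (Fin 2) F →* SpecialLinearGroup ι F where
  toFun m := ⟨1 + Bm * (m.val - 1) * Cm, by
    rw [Matrix.mul_assoc, Matrix.det_one_add_mul_comm, Matrix.mul_assoc, h, Matrix.mul_one, add_sub_cancel, m.2]⟩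
  map_one' := Subtype.ext (by
    show 1 + Bm * ((1 : Matrix (Fin 2) (Fin 2) F) - 1) * Cm = 1
    rw [sub_self, Matrix.mul_zero, Matrix.zero_mul, add_zero])
  map_mul' m m' := Subtype.ext (by
    show 1 + Bm * (m.val * m'.val - 1) * Cm = (1 + Bm * (m.val - 1) * Cm) * (1 + Bm * (m'.val - 1) * Cm)
    have h1 : Bm * (m.val - 1) * Cm * (Bm * (m'.val - 1) * Cm) = Bm * ((m.val - 1) * (m'.val - 1)) * Cm := by
      calc Bm * (m.val - 1) * Cm * (Bm * (m'.val - 1) * Cm) = Bm * (m.val - 1) * (Cm * Bm) * (m'.val - 1) * Cm := by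
            simp only [Matrix.mul_assoc]
        _ = _ := by rw [h, Matrix.mul_one]; simp only [Matrix.mul_assoc]
    have h2 : m.val * m'.val - 1 = (m.val - 1) + (m'.val - 1) + (m.val - 1) * (m'.val - 1) := by
      rw [sub_mul, mul_sub, mul_one, one_mul]; abel
    rw [h2, Matrix.mul_add, Matrix.mul_add, Matrix.add_mul, Matrix.add_mul, ← h1]
    generalize Bm * (m.val - 1) * Cm = X
    generalize Bm * (m'.val - 1) * Cm = Y
    rw [add_mul, one_mul, mul_add, mul_one]
    abel)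

theorem emb_val (Bm : Matrix ι (Fin 2) F) (Cm : Matrix (Fin 2) ι F) (h : Cm * Bm = 1) (m : SpecialLinearGroup (Fin 2) F) :
    (emb Bm Cm h m).val = 1 + Bm * (m.val - 1) * Cm := rfl

end mats

/-- dihedral argument: two involutions with product of odd order are conjugate -/
theorem dih {G : Type*} [Group G] {B : Subgroup G} {t s : G} (ht : t ∈ B) (hs : s ∈ B) (ht2 : t * t = 1) (hs2 : s * s = 1)
    {p : ℕ} (hp : Odd p) (hu : (t * s) ^ p = 1) : ∃ v ∈ B, v * s * v⁻¹ = t := by
  obtain ⟨j, hj⟩ := hp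
  have hti : t⁻¹ = t := inv_eq_of_mul_eq_one_left ht2
  have hsi : s⁻¹ = s := inv_eq_of_mul_eq_one_left hs2
  set u := t * s with hu'
  have h1 : t * u * t⁻¹ = u⁻¹ := by
    rw [hu', _root_.mul_inv_rev, hti, hsi, ← mul_assoc, ht2, one_mul]
  set v := u ^ (j + 1) with hv
  have h2 : v * v = u := by
    rw [hv, ← pow_add]
    have : j + 1 + (j + 1) = p + 1 := by omega
    rw [this, pow_succ, hu, one_mul]
  have h3 : t * v * t⁻¹ = v⁻¹ := by
    rw [hv, ← conj_pow, h1, inv_pow]
  refine ⟨v, B.pow_mem (B.mul_mem ht hs) _, ?_⟩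
  have h4 : s = t * u := by rw [hu', ← mul_assoc, ht2, one_mul]
  have h5 : t * v⁻¹ * t⁻¹ = v := by
    calc t * v⁻¹ * t⁻¹ = (t * v * t⁻¹)⁻¹ := by group
      _ = v := by rw [h3, inv_inv]
  calc v * s * v⁻¹ = v * t * (v * v) * v⁻¹ := by rw [h2, h4]; group
    _ = (t * v⁻¹ * t⁻¹) * t * v := by rw [h5]; group
    _ = t := by group

end Cfsg.Agent.H458.IFl
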