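import Cfsg.Agent.H458.IF.TOne

/-!
# S5719, PSL_4 (q odd), case (t1): two conjugates of the transvection `x` generate a `p`-group (helper458)
-/

set_option autoImplicit false
set_option linter.unusedSectionVars false

namespace Cfsg.Agent.H458.IFl

open Subgroup Matrix Cfsg.Agent.H209.Fxy Cfsg.Agent.H358.IF

variable {F : Type} [Field F]

/-- the projection onto the second block -/
def e0 : Matrix I4 I4 F := fromBlocks 0 0 0 1

/-- third basis vector -/
def v3 : I4 → F := Sum.elim 0 ![1, 0]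

/-- fourth basis vector -/
def v4 : I4 → F := Sum.elim 0 ![0, 1]

theorem e0_eq : (e0 : Matrix I4 I4 F) = vecMulVec v3 v3 + vecMulVec v4 v4 := by
  ext i j
  rcases i with i | i <;> rcases j with j | j <;> fin_cases i <;> fin_cases j <;>
    simp [e0, v3, v4, vecMulVec_apply, fromBlocks]

theorem dp33 : (v3 : I4 → F) ⬝ᵥ v3 = 1 := by simp [dotProduct, v3]

theorem dp34 : (v3 : I4 → F) ⬝ᵥ v4 = 0 := by simp [dotProduct, v3, v4]

theorem dp43 : (v4 : I4 → F) ⬝ᵥ v3 = 0 := by simp [dotProduct, v3, v4]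

theorem dp44 : (v4 : I4 → F) ⬝ᵥ v4 = 1 := by simp [dotProduct, v4]

/-- the transvection -/
def uu : S2 F := ⟨!![1, 1; 0, 1], by simp [det_fin_two_of]⟩

theorem blk_uu : (blk (1, (uu : S2 F))).val = 1 + vecMulVec v3 v4 := by
  rw [blk_val]
  ext i j
  rcases i with i | i <;> rcases j with j | j <;> fin_cases i <;> fin_cases j <;>
    simp [uu, v3, v4, vecMulVec_apply, fromBlocks]

theorem t_val : (blk ((-1 : S2 F), 1)).val = 2 • e0 - 1 := by
  rw [blk_val, e0]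
  ext i j
  rcases i with i | i <;> rcases j with j | j <;> fin_cases i <;> fin_cases j <;>
    simp [fromBlocks] <;> norm_num

/-- the nilpotent algebra computation -/
theorem nil_aux {α f : I4 → F} {v β : I4 → F} (h1 : f ⬝ᵥ v = 0) (h2 : α ⬝ᵥ v = 0) (h3 : f ⬝ᵥ β = 0) :
    (vecMulVec v α + vecMulVec β f) * (vecMulVec v α + vecMulVec β f) * (vecMulVec v α + vecMulVec β f) = 0 := by
  have h4 : (vecMulVec v α + vecMulVec β f) * (vecMulVec v α + vecMulVec β f) = (α ⬝ᵥ β) • vecMulVec v f := by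
    simp only [add_mul, mul_add, vecMulVec_mul_vecMulVec, h1, h2, h3, vecMulVec_smul, zero_smul, zero_add, add_zero,
      vecMulVec_zero]
  rw [h4]
  simp only [mul_add, smul_mul_assoc, vecMulVec_mul_vecMulVec, h1, h3, vecMulVec_smul, zero_smul, smul_zero, add_zero,
    vecMulVec_zero]

theorem pr_two (M : Matrix (Fin 2) (Fin 2) F) (v v' f f' : I4 → F) (c d : F) :
    (Matrix.of fun i j => ![v, v'] j i : Matrix I4 (Fin 2) F) * M * (Matrix.of ![d • f', c • f] : Matrix (Fin 2) I4 F) =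
      (M 0 0 * d) • vecMulVec v f' + (M 0 1 * c) • vecMulVec v f + (M 1 0 * d) • vecMulVec v' f' +
        (M 1 1 * c) • vecMulVec v' f := by
  ext i j
  simp only [Matrix.mul_apply, Fin.sum_univ_two, of_apply, cons_val_zero, cons_val_one, Matrix.add_apply,
    Matrix.smul_apply, vecMulVec_apply, Pi.smul_apply, smul_eq_mul]
  ring

variable [Finite F]

/-- **(BS)** -/
theorem opp_false {p : ℕ} [hp : Fact p.Prime] [CharP F p] (hp3 : 3 ≤ p) (h2 : (2 : F) ≠ 0) {B : Subgroup (S4 F)}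
    (hneg : ∀ s ∈ B, ∀ t : S4 F, t.val = (-1 : F) • s.val → t ∈ B) (hU : blk ((-1 : S2 F), 1) ∈ B)
    (hno : ∀ b : S2 F, b.val * b.val = -1 → blk (1, b) ∉ B) {x x' : S4 F} (hx : x ∈ B) (hx' : x' ∈ B)
    (hxv : x.val = 1 + vecMulVec v3 v4) {v f : I4 → F} (hxv' : x'.val = 1 + vecMulVec v f) (h0 : f ⬝ᵥ v = 0)
    (hc : v4 ⬝ᵥ v ≠ 0) (hd : f ⬝ᵥ v3 ≠ 0) : False := by
  set c := v4 ⬝ᵥ v with hc'
  set d := f ⬝ᵥ v3 with hd'
  set Bm : Matrix I4 (Fin 2) F := Matrix.of fun i j => ![v3, v] j i with hBm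
  set Cm : Matrix (Fin 2) I4 F := Matrix.of ![d⁻¹ • f, c⁻¹ • v4] with hCm
  have hCB : Cm * Bm = 1 := by
    ext i j
    have e1 : (Cm * Bm) i j = Cm i ⬝ᵥ (![v3, v] j) := by
      rw [Matrix.mul_apply]; rfl
    rw [e1]
    fin_cases i <;> fin_cases j
    · show (d⁻¹ • f) ⬝ᵥ v3 = 1
      rw [smul_dotProduct, ← hd', smul_eq_mul, inv_mul_cancel₀ hd]
    · show (d⁻¹ • f) ⬝ᵥ v = 0
      rw [smul_dotProduct, h0, smul_zero]
    · show (c⁻¹ • (v4 : I4 → F)) ⬝ᵥ v3 = 0
      rw [smul_dotProduct, dp43, smul_zero]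
    · show (c⁻¹ • (v4 : I4 → F)) ⬝ᵥ v = 1
      rw [smul_dotProduct, ← hc', smul_eq_mul, inv_mul_cancel₀ hc]
  have hBC : ∀ M : Matrix (Fin 2) (Fin 2) F, Bm * M * Cm = (M 0 0 * d⁻¹) • vecMulVec v3 f +
      (M 0 1 * c⁻¹) • vecMulVec v3 v4 + (M 1 0 * d⁻¹) • vecMulVec v f + (M 1 1 * c⁻¹) • vecMulVec v v4 :=
    fun M => pr_two M v3 v v4 f c⁻¹ d⁻¹
  set φ := emb Bm Cm hCB with hφ
  have hval : ∀ m : S2 F, (φ m).val = 1 + Bm * (m.val - 1) * Cm := fun m => rfl
  obtain ⟨xa, hxa⟩ : ∃ m : S2 F, m.val = !![1, c; 0, 1] := ⟨⟨!![1, c; 0, 1], by simp [det_fin_two_of]⟩, rfl⟩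
  obtain ⟨xb, hxb⟩ : ∃ m : S2 F, m.val = !![1, 0; d, 1] := ⟨⟨!![1, 0; d, 1], by simp [det_fin_two_of]⟩, rfl⟩
  have hxφ : φ xa = x := by
    apply Subtype.ext
    rw [hval, hxv, hBC, hxa]
    simp [mul_inv_cancel₀ hc]
  have hxφ' : φ xb = x' := by
    apply Subtype.ext
    rw [hval, hxv', hBC, hxb]
    simp [mul_inv_cancel₀ hd]
  obtain ⟨y, hy, hyy⟩ := Cfsg.Agent.H411.L4.exists_sq h2 hc hd (B.comap φ)
    (x := xa) (x' := xb)
    (by rw [Subgroup.mem_comap, hxφ]; exact hx) (by rw [Subgroup.mem_comap, hxφ']; exact hx') hxa hxb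
  have hyB : φ y ∈ B := hy
  set e : Matrix I4 I4 F := Bm * Cm with he
  have hee : e * e = e := by
    rw [he, Matrix.mul_assoc, ← Matrix.mul_assoc Cm, hCB, Matrix.one_mul]
  have hY1 : e * ((φ y).val - 1) = (φ y).val - 1 := by
    rw [hval, add_sub_cancel_left, he, Matrix.mul_assoc, ← Matrix.mul_assoc Cm, ← Matrix.mul_assoc Cm, hCB,
      Matrix.one_mul, ← Matrix.mul_assoc]
  have hY2 : ((φ y).val - 1) * e = (φ y).val - 1 := by
    rw [hval, add_sub_cancel_left, he, Matrix.mul_assoc, ← Matrix.mul_assoc Cm, hCB, Matrix.one_mul]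
  have hYY : (φ y).val * (φ y).val = 1 - (2 : F) • e := by
    have h3 : (φ y * φ y).val = 1 + Bm * ((y * y).val - 1) * Cm := by rw [← map_mul, hval]
    have h4 : (φ y).val * (φ y).val = (φ y * φ y).val := rfl
    rw [h4, h3]
    have h5 : (y * y).val - 1 = (-2 : F) • (1 : Matrix (Fin 2) (Fin 2) F) := by
      show y.val * y.val - 1 = _
      rw [hyy]
      rw [neg_smul, two_smul]
      abel
    rw [h5, Matrix.mul_smul, Matrix.mul_one, Matrix.smul_mul, ← he, neg_smul, ← sub_eq_add_neg]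
  -- `t`, `s`
  set t : S4 F := blk ((-1 : S2 F), 1) with ht
  have htv : t.val = (2 : F) • e0 - 1 := by
    rw [ht, t_val]
    congr 1
    rw [two_smul, two_smul]
  have he0 : (e0 : Matrix I4 I4 F) * e0 = e0 := by
    simp [e0, fromBlocks_multiply]
  obtain ⟨s, hs⟩ : ∃ s : S4 F, s.val = (2 : F) • e - 1 := by
    refine ⟨⟨(2 : F) • e - 1, ?_⟩, rfl⟩
    have h3 : (2 : F) • e - 1 = (-1 : F) • (φ y * φ y).val := by
      show _ = (-1 : F) • ((φ y).val * (φ y).val)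
      rw [hYY, neg_smul, one_smul]
      abel
    have h4 : ((φ y * φ y : S4 F).val).det = 1 := (φ y * φ y).2
    rw [h3, det_smul, h4, mul_one, Fintype.card_sum, Fintype.card_fin]
    norm_num
  have hsB : s ∈ B := by
    refine hneg (φ y * φ y) (B.mul_mem hyB hyB) s ?_
    rw [hs]
    show _ = (-1 : F) • ((φ y).val * (φ y).val)
    rw [hYY, neg_smul, one_smul]
    abel
  have hidem : ∀ E : Matrix I4 I4 F, E * E = E → ((2 : F) • E - 1) * ((2 : F) • E - 1) = 1 := by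
    intro E hE
    rw [sub_mul, mul_sub, smul_mul_smul_comm, hE, mul_one, one_mul]
    have h3 : ((2 : F) * 2) • E = (2 : F) • E + (2 : F) • E := by rw [← add_smul]; norm_num
    rw [h3]
    abel
  have ht2 : t * t = 1 := Subtype.ext (by
    show t.val * t.val = 1
    rw [htv]
    exact hidem _ he0)
  have hs2 : s * s = 1 := Subtype.ext (by
    show s.val * s.val = 1
    rw [hs]
    exact hidem _ hee)
  -- `e - e0`
  set w : I4 → F := d⁻¹ • f - v3 with hw
  set b : I4 → F := c⁻¹ • v - v4 with hb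
  have heN : e - e0 = vecMulVec v3 w + vecMulVec b v4 := by
    have h3 : e = d⁻¹ • vecMulVec v3 f + c⁻¹ • vecMulVec v v4 := by
      have h4 := hBC 1
      rw [Matrix.mul_one] at h4
      rw [he, h4]
      simp
    rw [h3, e0_eq, hw, hb, vecMulVec_sub, sub_vecMulVec, vecMulVec_smul, smul_vecMulVec]
    abel
  have hu : (t * s).val - 1 = vecMulVec v3 ((2 : F) • w) + vecMulVec ((2 : F) • (t.val *ᵥ b)) v4 := by
    have h3 : (t * s).val = t.val * s.val := rfl
    have h4 : t.val * s.val = 1 + (2 : F) • (t.val * (e - e0)) := by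
      have h5 : s.val = t.val + (2 : F) • (e - e0) := by
        rw [hs, htv, smul_sub]; abel
      have h6 : t.val * t.val = 1 := congrArg Subtype.val ht2
      rw [h5, mul_add, h6, Matrix.mul_smul]
    rw [h3, h4, add_sub_cancel_left, heN, mul_add, mul_vecMulVec, mul_vecMulVec, smul_add, ← vecMulVec_smul,
      ← smul_vecMulVec]
    congr 2
    rw [htv, sub_mulVec, smul_mulVec, one_mulVec, e0_eq, add_mulVec, vecMulVec_mulVec, vecMulVec_mulVec, dp33, dp43]
    simp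
    rw [two_smul]
    abel
  have hw0 : ((2 : F) • w) ⬝ᵥ v3 = 0 := by
    rw [hw, smul_dotProduct, sub_dotProduct, smul_dotProduct, ← hd', smul_eq_mul d⁻¹ d, inv_mul_cancel₀ hd, dp33, sub_self,
      smul_zero]
  have hb0 : v4 ⬝ᵥ b = 0 := by
    rw [hb, dotProduct_sub, dotProduct_smul, ← hc', smul_eq_mul, inv_mul_cancel₀ hc, dp44, sub_self]
  have hb1 : v4 ⬝ᵥ ((2 : F) • (t.val *ᵥ b)) = 0 := by
    rw [dotProduct_smul, dotProduct_mulVec]
    have h3 : v4 ᵥ* t.val = v4 := by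
      rw [htv, vecMul_sub, vecMul_smul, vecMul_one, e0_eq, vecMul_add, vecMul_vecMulVec, vecMul_vecMulVec, dp43, dp44]
      simp
      rw [two_smul]
      abel
    rw [h3, hb0, smul_zero]
  have hodd : Odd p := (hp.out.odd_of_ne_two (by omega))
  have hup : (t * s) ^ p = 1 := by
    apply sl_pow_p hp3
    rw [hu]
    exact nil_aux dp43 hw0 hb1
  obtain ⟨z, hzB, hz⟩ := dih hU hsB ht2 hs2 hodd hup
  -- the element `Y`
  set Y : S4 F := z * φ y * z⁻¹ with hYdef
  have hYB : Y ∈ B := B.mul_mem (B.mul_mem hzB hyB) (B.inv_mem hzB)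
  have hzz : z.val * (z⁻¹ : S4 F).val = 1 := mul_inv_val z
  have hzz' : (z⁻¹ : S4 F).val * z.val = 1 := inv_mul_val z
  have hze : z.val * e * (z⁻¹ : S4 F).val = e0 := by
    have h3 : z.val * s.val * (z⁻¹ : S4 F).val = t.val := congrArg Subtype.val hz
    rw [hs, htv, mul_sub, sub_mul, Matrix.mul_smul, Matrix.smul_mul, mul_one, hzz] at h3
    have h4 : (2 : F) • (z.val * e * (z⁻¹ : S4 F).val) = (2 : F) • e0 := sub_left_injective h3
    exact smul_right_injective _ h2 h4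
  have hconj : ∀ X Y : Matrix I4 I4 F, z.val * (X * Y) * (z⁻¹ : S4 F).val =
      (z.val * X * (z⁻¹ : S4 F).val) * (z.val * Y * (z⁻¹ : S4 F).val) := by
    intro X Y
    calc z.val * (X * Y) * (z⁻¹ : S4 F).val = z.val * X * 1 * Y * (z⁻¹ : S4 F).val := by
          simp only [mul_assoc, one_mul]
      _ = _ := by rw [← hzz']; simp only [mul_assoc]
  have hYv : Y.val = z.val * (φ y).val * (z⁻¹ : S4 F).val := rfl
  have hYm : Y.val - 1 = z.val * ((φ y).val - 1) * (z⁻¹ : S4 F).val := by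
    rw [hYv, mul_sub, sub_mul, mul_one, hzz]
  have hA1 : e0 * (Y.val - 1) = Y.val - 1 := by
    rw [hYm, ← hze, ← hconj, hY1]
  have hA2 : (Y.val - 1) * e0 = Y.val - 1 := by
    rw [hYm, ← hze, ← hconj, hY2]
  have hA3 : Y.val * Y.val = 1 - (2 : F) • e0 := by
    rw [hYv, ← hconj, hYY, mul_sub, sub_mul, mul_one, hzz, Matrix.mul_smul, Matrix.smul_mul, hze]
  obtain ⟨a1, a2, a3, a4, hYb⟩ : ∃ a1 a2 a3 a4 : M2 F, Y.val = fromBlocks a1 a2 a3 a4 :=
    ⟨_, _, _, _, (fromBlocks_toBlocks Y.val).symm⟩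
  have h1b : (1 : Matrix I4 I4 F) = fromBlocks 1 0 0 1 := fromBlocks_one.symm
  have hYb1 : Y.val - 1 = fromBlocks (a1 - 1) a2 a3 (a4 - 1) := by
    rw [hYb, h1b, sub_eq_add_neg, fromBlocks_neg, fromBlocks_add]
    simp [sub_eq_add_neg]
  rw [hYb1, e0, fromBlocks_multiply] at hA1 hA2
  simp only [zero_mul, mul_zero, one_mul, mul_one, zero_add, add_zero] at hA1 hA2
  obtain ⟨k1, k2, -, -⟩ := fromBlocks_inj.1 hA1
  obtain ⟨-, -, k3, -⟩ := fromBlocks_inj.1 hA2
  have k4 : a1 = 1 := (sub_eq_zero.1 k1.symm)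
  subst k4
  rw [← k2, ← k3] at hYb
  have hdet : a4.det = 1 := by
    have h3 := Y.2
    rw [hYb, det_fromBlocks_zero₂₁, det_one, one_mul] at h3
    exact h3
  have hsq : a4 * a4 = -1 := by
    rw [hYb, e0, h1b, fromBlocks_multiply, fromBlocks_smul, sub_eq_add_neg, fromBlocks_neg, fromBlocks_add] at hA3
    obtain ⟨-, -, -, h4⟩ := fromBlocks_inj.1 hA3
    rw [mul_zero, zero_add] at h4
    rw [h4, two_smul]
    abel
  obtain ⟨m4, hm4⟩ : ∃ m : S2 F, m.val = a4 := ⟨⟨a4, hdet⟩, rfl⟩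
  refine hno m4 (by rw [hm4]; exact hsq) ?_
  have h3 : blk (1, m4) = Y := by
    apply Subtype.ext
    rw [blk_val, hYb, hm4]
    rfl
  rw [h3]
  exact hYB

end Cfsg.Agent.H458.IFl
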