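import Cfsg.Agent.H458.IF.TOneB

/-!
# S5719, PSL_4 (q odd), case (t1): the end (helper458)
-/

set_option autoImplicit false
set_option linter.unusedSectionVars false

namespace Cfsg.Agent.H458.IFl

open Subgroup Matrix Cfsg.Agent.H209.Fxy Cfsg.Agent.H358.IF

section

variable {F : Type} [Field F]

/-- the natural representation -/
def rho : S4 F →* Module.End F (I4 → F) where
  toFun g := Matrix.toLin' g.val
  map_one' := Matrix.toLin'_one
  map_mul' g h := Matrix.toLin'_mul g.val h.val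

theorem rho_ap (g : S4 F) (v : I4 → F) : rho g v = g.val *ᵥ v := Matrix.toLin'_apply g.val v

theorem rho_inj : Function.Injective (rho : S4 F →* Module.End F (I4 → F)) := by
  intro g h hgh
  apply Subtype.ext
  exact Matrix.toLin'.injective hgh

theorem dg_mulVec (d e : M2 F) (h : d.det * e.det = 1) (w : I4 → F) :
    (dg d e h).val *ᵥ w = Sum.elim (d *ᵥ (w ∘ Sum.inl)) (e *ᵥ (w ∘ Sum.inr)) := by
  rw [dg_val, fromBlocks_mulVec]
  simp

theorem sum_add (a a' b b' : Fin 2 → F) : (Sum.elim a b : I4 → F) + Sum.elim a' b' = Sum.elim (a + a') (b + b') := by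
  ext i; rcases i with i | i <;> rfl

theorem sum_smul (c : F) (a b : Fin 2 → F) : c • (Sum.elim a b : I4 → F) = Sum.elim (c • a) (c • b) := by
  ext i; rcases i with i | i <;> rfl

/-- `diag(1, -1)` -/
def D2 : M2 F := !![1, 0; 0, -1]

theorem D2_det : (D2 : M2 F).det = -1 := by simp [D2, det_fin_two_of]

theorem D2_sq : (D2 : M2 F) * D2 = 1 := by
  ext i j; fin_cases i <;> fin_cases j <;> simp [D2, Matrix.mul_apply, Fin.sum_univ_two]

theorem D2_hd : (D2 : M2 F).det * (D2 : M2 F).det = 1 := by rw [D2_det]; norm_num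

theorem D2_mulVec (a : Fin 2 → F) : D2 *ᵥ a = ![a 0, -a 1] := by
  ext i; fin_cases i <;> simp [D2, Matrix.mulVec, dotProduct, Fin.sum_univ_two]

variable [Finite F]

/-- stability of invariant subspaces -/
theorem stab_D2 (h2 : (2 : F) ≠ 0) {B : Subgroup (S4 F)} (hU : ∀ a : S2 F, blk (a, 1) ∈ B) (hx : blk (1, uu) ∈ B)
    (W : Submodule F (I4 → F)) (hW : ∀ b ∈ B, ∀ w ∈ W, rho b w ∈ W) :
    ∀ w ∈ W, rho (dg D2 D2 D2_hd) w ∈ W := by
  intro w hw
  obtain ⟨a, b, rfl⟩ : ∃ a b : Fin 2 → F, w = Sum.elim a b :=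
    ⟨w ∘ Sum.inl, w ∘ Sum.inr, by ext i; rcases i with i | i <;> rfl⟩
  have hblk : ∀ (m n : S2 F) (a b : Fin 2 → F), blk (m, n) ∈ B → (Sum.elim a b : I4 → F) ∈ W →
      (Sum.elim (m.val *ᵥ a) (n.val *ᵥ b) : I4 → F) ∈ W := by
    intro m n a b hmn hab
    have h3 := hW _ hmn _ hab
    rw [rho_ap] at h3
    have h4 : (blk (m, n)).val *ᵥ (Sum.elim a b : I4 → F) = Sum.elim (m.val *ᵥ a) (n.val *ᵥ b) :=
      dg_mulVec _ _ (det_dg_aux m n) _
    rwa [h4] at h3
  have h3 : (Sum.elim (-a) b : I4 → F) ∈ W := by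
    have h4 := hblk (-1) 1 a b (hU (-1)) hw
    have h5 : ((-1 : S2 F)).val = -1 := rfl
    have h6 : ((1 : S2 F)).val = 1 := rfl
    rwa [h5, h6, neg_mulVec, one_mulVec, one_mulVec] at h4
  have hb : (Sum.elim 0 b : I4 → F) ∈ W := by
    have h4 := W.smul_mem (2⁻¹ : F) (W.add_mem hw h3)
    rw [sum_add, add_neg_cancel, sum_smul, smul_zero, ← two_smul F b, smul_smul, inv_mul_cancel₀ h2, one_smul] at h4
    exact h4
  have ha : (Sum.elim a 0 : I4 → F) ∈ W := by
    have h4 := W.sub_mem hw hb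
    have h5 : (Sum.elim a b : I4 → F) - (Sum.elim 0 b : I4 → F) = (Sum.elim a 0 : I4 → F) := by
      ext i; rcases i with i | i <;> simp
    rwa [h5] at h4
  have hDa : (Sum.elim (D2 *ᵥ a) 0 : I4 → F) ∈ W := by
    by_cases h0 : a 0 = 0
    · have h4 := W.neg_mem ha
      have h5 : -(Sum.elim a 0 : I4 → F) = (Sum.elim (D2 *ᵥ a) 0 : I4 → F) := by
        rw [D2_mulVec]
        ext i; rcases i with i | i
        · fin_cases i
          · simp [h0]
          · simp
        · simp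
      rwa [h5] at h4
    · obtain ⟨l, hl⟩ : ∃ l : S2 F, l.val = !![1, 0; -(2 * a 1) * (a 0)⁻¹, 1] :=
        ⟨⟨!![1, 0; -(2 * a 1) * (a 0)⁻¹, 1], by simp [det_fin_two_of]⟩, rfl⟩
      have h4 := hblk l 1 a 0 (hU l) ha
      rw [hl, mulVec_zero] at h4
      have h5 : !![1, 0; -(2 * a 1) * (a 0)⁻¹, 1] *ᵥ a = D2 *ᵥ a := by
        rw [D2_mulVec]
        ext i; fin_cases i
        · simp [Matrix.mulVec, dotProduct, Fin.sum_univ_two]
        · simp [Matrix.mulVec, dotProduct, Fin.sum_univ_two]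
          field_simp
          ring
      rwa [h5] at h4
  have hDb : (Sum.elim 0 (D2 *ᵥ b) : I4 → F) ∈ W := by
    by_cases h0 : b 1 = 0
    · have h5 : (Sum.elim 0 (D2 *ᵥ b) : I4 → F) = (Sum.elim 0 b : I4 → F) := by
        rw [D2_mulVec]
        ext i; rcases i with i | i
        · rfl
        · fin_cases i
          · simp
          · simp [h0]
      rwa [h5]
    · have h4 := hblk 1 uu 0 b hx hb
      rw [mulVec_zero] at h4
      have h5 := W.add_mem (W.neg_mem hb) (W.smul_mem (2 * b 0 * (b 1)⁻¹) (W.sub_mem h4 hb))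
      have h6 : -(Sum.elim 0 b : I4 → F) + (2 * b 0 * (b 1)⁻¹) •
          ((Sum.elim 0 ((uu : S2 F).val *ᵥ b) : I4 → F) - (Sum.elim 0 b : I4 → F)) = (Sum.elim 0 (D2 *ᵥ b) : I4 → F) := by
        rw [D2_mulVec]
        ext i; rcases i with i | i
        · simp
        · fin_cases i
          · simp [uu, Matrix.mulVec, dotProduct, Fin.sum_univ_two]
            field_simp
            ring
          · simp [uu, Matrix.mulVec, dotProduct, Fin.sum_univ_two]
      rwa [h6] at h5
  rw [rho_ap, dg_mulVec]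
  have h7 : (Sum.elim (D2 *ᵥ a) (D2 *ᵥ b) : I4 → F) = (Sum.elim (D2 *ᵥ a) 0 : I4 → F) + (Sum.elim 0 (D2 *ᵥ b) : I4 → F) := by
    rw [sum_add, add_zero, zero_add]
  show (Sum.elim (D2 *ᵥ a) (D2 *ᵥ b) : I4 → F) ∈ W
  rw [h7]
  exact W.add_mem hDa hDb

end

theorem t1_core {F : Type} [Field F] [Fintype F] (h2 : (2 : F) ≠ 0) {A : Subgroup (P4 F)} (h : IFA A)
    (hU : ∀ a : S2 F, blk (a, 1) ∈ At A) (hno : ∀ b : S2 F, b.val * b.val = -1 → blk (1, b) ∉ At A)
    (hx : blk (1, uu) ∈ At A) : dg D2 D2 D2_hd ∈ At A := by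
  classical
  obtain ⟨p, hcp⟩ := CharP.exists F
  have hpp : p.Prime := CharP.char_is_prime F p
  have hp : Fact p.Prime := ⟨hpp⟩
  have hp3 : 3 ≤ p := by
    have h3 := hpp.two_le
    rcases Nat.lt_or_ge 2 p with h4 | h4
    · exact h4
    · have h5 : p = 2 := by omega
      subst h5
      exact absurd (by exact_mod_cast CharP.cast_eq_zero F 2) h2
  obtain ⟨Γ, hA⟩ := h
  have hcard : Fintype.card I4 = 4 := by rw [Fintype.card_sum, Fintype.card_fin]
  have hsim : IsSimpleGroup (P4 F) := LieClassical.SLGen.psl_isSimpleGroup (by rw [hcard]; norm_num)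
  have hfin : Finite (P4 F) := by
    unfold P4 ProjectiveSpecialLinearGroup
    infer_instance
  obtain ⟨K, hK⟩ := opN_of_IF hA p
  have hker : (pr : S4 F →* P4 F).ker = Subgroup.center (S4 F) := QuotientGroup.ker_mk' _
  obtain ⟨P, hP⟩ := opN_lift (pr : S4 F →* P4 F) pr_surj hker.le p 4 (by
      have h3 : Nat.Coprime 2 p := by
        rw [Nat.coprime_primes Nat.prime_two hpp]
        omega
      exact Nat.Coprime.pow_left 2 h3) (by
      intro z hz
      rw [hker] at hz
      obtain ⟨c, hc, hz'⟩ := exists_smul_of_mem_center hz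
      rw [hcard] at hc
      apply Subtype.ext
      rw [Matrix.SpecialLinearGroup.coe_pow, hz', smul_pow, hc, one_pow, one_smul]
      rfl) hK
  have hneg : ∀ s ∈ At A, ∀ t : S4 F, t.val = (-1 : F) • s.val → t ∈ At A := fun s hs t ht => mem_At_of_smul ht hs
  have hxP : blk (1, (uu : S2 F)) ∈ P := by
    refine bs hP hx ?_
    intro g hg
    set x : S4 F := blk (1, uu) with hxdef
    have hxv : x.val = 1 + vecMulVec v3 v4 := blk_uu
    have hgg : g.val * (g⁻¹ : S4 F).val = 1 := mul_inv_val g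
    have hgg' : (g⁻¹ : S4 F).val * g.val = 1 := inv_mul_val g
    have hxv' : (g * x * g⁻¹ : S4 F).val = 1 + vecMulVec (g.val *ᵥ v3) (v4 ᵥ* (g⁻¹ : S4 F).val) := by
      show g.val * x.val * (g⁻¹ : S4 F).val = _
      rw [hxv, mul_add, mul_one, add_mul, hgg, mul_vecMulVec, vecMulVec_mul]
    have h0 : (v4 ᵥ* (g⁻¹ : S4 F).val) ⬝ᵥ (g.val *ᵥ v3) = 0 := by
      rw [← dotProduct_mulVec, mulVec_mulVec, hgg', one_mulVec, dp43]
    have hn1 : vecMulVec (v3 : I4 → F) v4 * vecMulVec v3 v4 = 0 := by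
      rw [vecMulVec_mul_vecMulVec, dp43, zero_smul, vecMulVec_zero]
    have hn2 : vecMulVec (g.val *ᵥ v3) (v4 ᵥ* (g⁻¹ : S4 F).val) * vecMulVec (g.val *ᵥ v3) (v4 ᵥ* (g⁻¹ : S4 F).val) = 0 := by
      rw [vecMulVec_mul_vecMulVec, h0, zero_smul, vecMulVec_zero]
    by_cases hc : v4 ⬝ᵥ (g.val *ᵥ v3) = 0
    · refine pg_closure hp3 hxv hxv' hn1 hn2 ?_
      rw [vecMulVec_mul_vecMulVec, hc, zero_smul, vecMulVec_zero]
    · by_cases hd : (v4 ᵥ* (g⁻¹ : S4 F).val) ⬝ᵥ v3 = 0
      · rw [Set.pair_comm]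
        refine pg_closure hp3 hxv' hxv hn2 hn1 ?_
        rw [vecMulVec_mul_vecMulVec, hd, zero_smul, vecMulVec_zero]
      · exact (opp_false hp3 h2 hneg (hU (-1)) hno hx
          ((At A).mul_mem ((At A).mul_mem hg hx) ((At A).inv_mem hg)) hxv hxv' h0 hc hd).elim
  have hPne : P ≠ ⊥ := by
    intro hbot
    rw [hbot, Subgroup.mem_bot] at hxP
    have h3 := congrArg (fun s : S4 F => s.val (Sum.inr 0) (Sum.inr 1)) hxP
    simp only [blk_uu] at h3
    simp [v3, v4, vecMulVec_apply] at h3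
  exact flag rho p rho_inj hP hPne _ (stab_D2 h2 hU hx)

/-- **Case (t1).** -/
theorem t1_false {F : Type} [Field F] [Fintype F] (h2 : (2 : F) ≠ 0) {A : Subgroup (P4 F)} (h : IFA A)
    (hU : ∀ a : S2 F, blk (a, 1) ∈ At A) (hno : ∀ b : S2 F, b.val * b.val = -1 → blk (1, b) ∉ At A)
    (hx : ∃ b : S2 F, b ≠ 1 ∧ (b.val - 1) * (b.val - 1) = 0 ∧ blk (1, b) ∈ At A)
    (hfr : ∀ (d e : M2 F) (hde : d.det * e.det = 1), d * d = 1 → e * e = 1 → d.det = -1 → e.det = -1 →
      dg d e hde ∉ At A) : False := by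
  obtain ⟨b, hb1, hb2, hb⟩ := hx
  -- a basis
  obtain ⟨k, hk⟩ : ∃ k : GL (Fin 2) F, (k⁻¹ : GL (Fin 2) F).val * (uu : S2 F).val * k.val = b.val := by
    obtain ⟨N, hN⟩ : ∃ N : M2 F, b.val = 1 + N := ⟨b.val - 1, by abel⟩
    rw [hN, add_sub_cancel_left] at hb2
    have hN0 : N ≠ 0 := by
      intro h0
      apply hb1
      apply Subtype.ext
      rw [hN, h0, add_zero]
      rfl
    have e00 := congrFun (congrFun hb2 0) 0
    have e01 := congrFun (congrFun hb2 0) 1
    have e10 := congrFun (congrFun hb2 1) 0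
    have e11 := congrFun (congrFun hb2 1) 1
    simp only [Matrix.mul_apply, Fin.sum_univ_two, Matrix.zero_apply] at e00 e01 e10 e11
    -- `g` with `g * uu = b * g`
    have key : ∃ g : M2 F, g.det ≠ 0 ∧ b.val * g = g * (uu : S2 F).val := by
      by_cases h10 : N 1 0 = 0
      · have h00 : N 0 0 = 0 := by
          rw [h10, mul_zero, add_zero] at e00
          exact mul_self_eq_zero.1 e00
        have h11 : N 1 1 = 0 := by
          rw [h10, zero_mul, zero_add] at e11
          exact mul_self_eq_zero.1 e11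
        have h01 : N 0 1 ≠ 0 := by
          intro h01
          apply hN0
          ext i j; fin_cases i <;> fin_cases j <;> assumption
        refine ⟨!![N 0 1, 0; 0, 1], by simp [det_fin_two_of, h01], ?_⟩
        rw [hN]
        ext i j; fin_cases i <;> fin_cases j <;>
          simp [uu, Matrix.mul_apply, Fin.sum_univ_two, h00, h10, h11]
      · have h11 : N 1 1 = - N 0 0 := by
          have h3 : N 1 0 * (N 0 0 + N 1 1) = 0 := by linear_combination e10
          rcases mul_eq_zero.1 h3 with h4 | h4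
          · exact absurd h4 h10
          · linear_combination h4
        refine ⟨!![N 0 0, 1; N 1 0, 0], by simp [det_fin_two_of, h10], ?_⟩
        rw [hN]
        ext i j; fin_cases i <;> fin_cases j
        · simp [uu, Matrix.mul_apply, Fin.sum_univ_two]
          linear_combination e00
        · simp [uu, Matrix.mul_apply, Fin.sum_univ_two]
          ring
        · simp [uu, Matrix.mul_apply, Fin.sum_univ_two]
          rw [h11]
          ring
        · simp [uu, Matrix.mul_apply, Fin.sum_univ_two]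
    obtain ⟨g, hg, hgu⟩ := key
    let G : GL (Fin 2) F := Matrix.GeneralLinearGroup.mkOfDetNeZero g hg
    have hG : G.val = g := rfl
    refine ⟨G⁻¹, ?_⟩
    rw [inv_inv, hG, ← hgu, mul_assoc, ← hG, ← Units.val_mul, mul_inv_cancel, Units.val_one, mul_one]
  set m : GL I4 F := gg 1 k with hm
  have hA' : IFA (cA m A) := h.conj m
  have hcs1 : ∀ a : S2 F, cS (1 : GL (Fin 2) F) a = a := by
    intro a
    apply Subtype.ext
    rw [cS_val, inv_one, Units.val_one, one_mul, mul_one]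
  have hU' : ∀ a : S2 F, blk (a, 1) ∈ At (cA m A) := by
    intro a
    have h3 : cS m (blk (a, 1)) = blk (a, 1) := by rw [hm, cS_gg_blk, hcs1, map_one]
    rw [← h3, mem_cA]
    exact hU a
  have hback : ∀ b : S2 F, ∃ b' : S2 F, cS k b' = b ∧ (k⁻¹ : GL (Fin 2) F).val * b.val * k.val = b'.val :=
    fun b => ⟨(cS k).symm b, (cS k).apply_symm_apply b, rfl⟩
  have hno' : ∀ b : S2 F, b.val * b.val = -1 → blk (1, b) ∉ At (cA m A) := by
    intro c hc hcm
    obtain ⟨b', hb', hbv⟩ := hback c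
    have h3 : cS m (blk (1, b')) = blk (1, c) := by rw [hm, cS_gg_blk, hb', hcs1]
    rw [← h3, mem_cA] at hcm
    refine hno b' ?_ hcm
    rw [← hbv]
    calc (k⁻¹ : GL (Fin 2) F).val * c.val * k.val * ((k⁻¹ : GL (Fin 2) F).val * c.val * k.val) =
        (k⁻¹ : GL (Fin 2) F).val * c.val * (k.val * (k⁻¹ : GL (Fin 2) F).val) * c.val * k.val := by
          simp only [mul_assoc]
      _ = (k⁻¹ : GL (Fin 2) F).val * (c.val * c.val) * k.val := by
          rw [← Units.val_mul, mul_inv_cancel, Units.val_one, mul_one]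
          simp only [mul_assoc]
      _ = -1 := by
          rw [hc, mul_neg, mul_one, neg_mul, ← Units.val_mul, inv_mul_cancel, Units.val_one]
  have hx' : blk (1, (uu : S2 F)) ∈ At (cA m A) := by
    have h3 : cS m (blk (1, b)) = blk (1, uu) := by
      rw [hm, cS_gg_blk, hcs1]
      congr 2
      apply Subtype.ext
      rw [cS_val, ← hk]
      calc k.val * ((k⁻¹ : GL (Fin 2) F).val * (uu : S2 F).val * k.val) * (k⁻¹ : GL (Fin 2) F).val =
          (k.val * (k⁻¹ : GL (Fin 2) F).val) * (uu : S2 F).val * (k.val * (k⁻¹ : GL (Fin 2) F).val) := by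
            simp only [mul_assoc]
        _ = _ := by rw [← Units.val_mul, mul_inv_cancel, Units.val_one, one_mul, mul_one]
    rw [← h3, mem_cA]
    exact hb
  have hD := t1_core h2 hA' hU' hno' hx'
  -- back
  have hkk : ∀ M : M2 F, k.val * ((k⁻¹ : GL (Fin 2) F).val * M * k.val) * (k⁻¹ : GL (Fin 2) F).val = M := by
    intro M
    calc k.val * ((k⁻¹ : GL (Fin 2) F).val * M * k.val) * (k⁻¹ : GL (Fin 2) F).val =
          (k.val * (k⁻¹ : GL (Fin 2) F).val) * M * (k.val * (k⁻¹ : GL (Fin 2) F).val) := by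
            simp only [mul_assoc]
      _ = _ := by rw [← Units.val_mul, mul_inv_cancel, Units.val_one, one_mul, mul_one]
  have hdete : ((k⁻¹ : GL (Fin 2) F).val * D2 * k.val).det = -1 := by
    rw [det_mul, det_mul, mul_comm, ← mul_assoc, ← det_mul, ← Units.val_mul, mul_inv_cancel, Units.val_one, det_one,
      one_mul, D2_det]
  have hde : (D2 : M2 F).det * ((k⁻¹ : GL (Fin 2) F).val * D2 * k.val).det = 1 := by
    rw [hdete, D2_det]; norm_num
  refine hfr D2 ((k⁻¹ : GL (Fin 2) F).val * D2 * k.val) hde D2_sq ?_ D2_det hdete ?_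
  · calc (k⁻¹ : GL (Fin 2) F).val * D2 * k.val * ((k⁻¹ : GL (Fin 2) F).val * D2 * k.val) =
        (k⁻¹ : GL (Fin 2) F).val * D2 * (k.val * (k⁻¹ : GL (Fin 2) F).val) * D2 * k.val := by
          simp only [mul_assoc]
      _ = (k⁻¹ : GL (Fin 2) F).val * (D2 * D2) * k.val := by
          rw [← Units.val_mul, mul_inv_cancel, Units.val_one, mul_one]
          simp only [mul_assoc]
      _ = 1 := by
          rw [D2_sq, mul_one, ← Units.val_mul, inv_mul_cancel, Units.val_one]
  · rw [← mem_cA (g := m)]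
    have h3 : cS m (dg D2 ((k⁻¹ : GL (Fin 2) F).val * D2 * k.val) hde) = dg D2 D2 D2_hd := by
      apply Subtype.ext
      rw [cS_val, dg_val, dg_val, hm, gg_inv_val]
      show fromBlocks (1 : GL (Fin 2) F).val 0 0 k.val * _ * _ = _
      rw [fromBlocks_multiply, fromBlocks_multiply]
      simp only [zero_mul, mul_zero, add_zero, zero_add, inv_one, Units.val_one, one_mul, mul_one]
      rw [hkk]
    rw [h3]
    exact hD

end Cfsg.Agent.H458.IFl
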